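import Cfsg.Agent.Stability.Complement
import Cfsg.Agent.Transfer.Residual
import Cfsg.Agent.H4.ThompsonReduction
import Mathlib.GroupTheory.SchurZassenhaus

/-!
A characteristic self-centralizing subgroup of a `p`-group, `p` odd, whose automizer decides the
existence of normal `p`-complements: iterate Glauberman's `Z(J)` theorem in `C(Z(J))/Z(J)`.
-/

set_option autoImplicit false
set_option linter.style.haveILetI false

namespace Cfsg.Agent.EvenLocal.Decider

open Subgroup

universe u

variable {p : ℕ} [Fact p.Prime]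

/-- A preimage of order prime to `p`. -/
theorem exists_coprime_preimage {G H : Type*} [Group G] [Finite G] [Group H] (f : G →* H) {g : G}
    (hg : (orderOf (f g)).Coprime p) :
    ∃ x ∈ zpowers g, (orderOf x).Coprime p ∧ f x = f g := by
  have hp := (Fact.out : p.Prime)
  obtain ⟨a, m, hm, hgm⟩ := Nat.exists_eq_pow_mul_and_not_dvd (orderOf_pos g).ne' p hp.ne_one
  obtain ⟨k, hk⟩ := exists_pow_eq_self_of_coprime
    (show (p ^ a).Coprime (orderOf (f g)) from (hg.pow_right a).symm)
  refine ⟨(g ^ p ^ a) ^ k, pow_mem (pow_mem (mem_zpowers g) _) _, ?_, by rw [map_pow, map_pow, hk]⟩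
  refine ((hp.coprime_iff_not_dvd.mpr hm).symm).coprime_dvd_left
    ((orderOf_pow_dvd k).trans ?_)
  refine orderOf_dvd_of_pow_eq_one ?_
  rw [← pow_mul, ← hgm, pow_orderOf_eq_one]

/-- A central `p`-subgroup does not affect the existence of a normal `p`-complement. -/
theorem npc_of_central_quotient {C : Type*} [Group C] [Finite C] (Z : Subgroup C) [Z.Normal]
    (hZc : Z ≤ center C) (hZ : IsPGroup p Z) (h : Cfsg.HasNormalPComplement p (C ⧸ Z)) :
    Cfsg.HasNormalPComplement p C := by
  have hp := (Fact.out : p.Prime)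
  set π := QuotientGroup.mk' Z with hπ
  set M := (Cfsg.pResidual p (C ⧸ Z)).comap π with hM
  have hZM : Z ≤ M := QuotientGroup.le_comap_mk' Z _
  have hcard : Nat.card M = Nat.card Z * Nat.card (Cfsg.pResidual p (C ⧸ Z)) :=
    Cores.card_comap_mk_eq Z _
  set Z' := Z.subgroupOf M with hZ'
  haveI : Z'.Normal := inferInstance
  have hZ'card : Nat.card Z' = Nat.card Z := Nat.card_congr (subgroupOfEquivOfLe hZM).toEquiv
  have hidx : Z'.index = Nat.card (Cfsg.pResidual p (C ⧸ Z)) := by
    have h1 := Z'.card_mul_index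
    rw [hZ'card, hcard] at h1
    exact Nat.eq_of_mul_eq_mul_left Nat.card_pos h1
  have hco : ¬ p ∣ Z'.index := hidx ▸ Transfer.hasNormalPComplement_iff.mp h
  obtain ⟨j, hj⟩ := hZ.exists_card_eq
  obtain ⟨K, hK⟩ := Subgroup.exists_right_complement'_of_coprime (N := Z') (by
    rw [hZ'card, hj]; exact (hp.coprime_iff_not_dvd.mpr hco).pow_left j)
  have hKcard : ¬ p ∣ Nat.card K := by rwa [Subgroup.IsComplement'.index_eq_card hK.symm] at hco
  rw [Transfer.hasNormalPComplement_iff]
  intro hd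
  refine hKcard (hd.trans ((card_dvd_of_le ?_).trans
    (Subgroup.card_map_of_injective M.subtype_injective).dvd) : p ∣ Nat.card K)
  refine (closure_le _).2 fun x hx => ?_
  have hxM : x ∈ M := Transfer.mem_pResidual_of_coprime (hx.coprime_dvd_left (orderOf_map_dvd π x))
  obtain ⟨⟨z, k⟩, hzk⟩ := (hK : Function.Bijective _).2 ⟨x, hxM⟩
  refine ⟨(k : M), k.2, ?_⟩
  have hxe : ((z : M) : C) * ((k : M) : C) = x := congrArg Subtype.val hzk
  have hzZ : ((z : M) : C) ∈ Z := z.2
  have hcomm : Commute ((z : M) : C) ((k : M) : C) :=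
    (mem_center_iff.1 (hZc hzZ) _).symm
  have hk1 : ((k : M) : C) ^ Nat.card K = 1 := by
    rw [← SubgroupClass.coe_pow, ← SubgroupClass.coe_pow, pow_card_eq_one']
    simp
  obtain ⟨i, hi⟩ := hZ ⟨_, hzZ⟩
  have hi' : ((z : M) : C) ^ p ^ i = 1 := congrArg Subtype.val hi
  have h1 : (((z : M) : C) ^ Nat.card K) ^ orderOf x = 1 := by
    have : x ^ Nat.card K = ((z : M) : C) ^ Nat.card K := by
      rw [← hxe, hcomm.mul_pow, hk1, mul_one]
    rw [← this, ← pow_mul, mul_comm, pow_mul, pow_orderOf_eq_one, one_pow]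
  have h2 : ((z : M) : C) ^ Nat.card K = 1 := by
    refine orderOf_eq_one_iff.1 (Nat.eq_one_of_dvd_coprimes ((hx : (orderOf x).Coprime p).pow_right i)
      (orderOf_dvd_of_pow_eq_one h1) (orderOf_dvd_of_pow_eq_one ?_))
    rw [← pow_mul, mul_comm, pow_mul, hi', one_pow]
  have h3 : ((z : M) : C) = 1 :=
    orderOf_eq_one_iff.1 (Nat.eq_one_of_dvd_coprimes
      ((hp.coprime_iff_not_dvd.mpr hKcard).pow_left i)
      (orderOf_dvd_of_pow_eq_one hi') (orderOf_dvd_of_pow_eq_one h2))
  rw [← hxe, h3, one_mul]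
  rfl

/-- `K ≤ S` decides normal `p`-complements. -/
def Decides (p : ℕ) (S : Type u) [Group S] (K : Subgroup S) : Prop :=
  ∀ (G : Type u) [Group G] [Finite G] (P : Sylow p G) (e : ↥(P : Subgroup G) ≃* S),
    (∀ g ∈ normalizer (((K.comap (e : ↥(P : Subgroup G) →* S)).map (P : Subgroup G).subtype :
      Subgroup G) : Set G), (orderOf g).Coprime p →
      g ∈ centralizer (((K.comap (e : ↥(P : Subgroup G) →* S)).map (P : Subgroup G).subtype :
        Subgroup G) : Set G)) → Cfsg.HasNormalPComplement p G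

theorem map_comap_eq {S : Type u} [Group S] {G : Type u} [Group G] {P : Subgroup G}
    (e : ↥P ≃* S) (K : Subgroup S) :
    (K.comap (e : ↥P →* S)).map P.subtype = K.map (P.subtype.comp e.symm.toMonoidHom) := by
  rw [← Subgroup.map_map]
  congr 1
  exact (Subgroup.map_equiv_eq_comap_symm e.symm K).symm

theorem exists_decider (hp : p ≠ 2) (S : Type u) [Group S] [Finite S] (hS : IsPGroup p S) :
    ∃ K : Subgroup S, K.Characteristic ∧ centralizer (K : Set S) ≤ K ∧ Decides p S K := by
  induction hn : Nat.card S using Nat.strong_induction_on generalizing S with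
  | _ n ih =>
  subst hn
  rcases subsingleton_or_nontrivial S with hsub | hnt
  · refine ⟨⊤, inferInstance, le_top, fun G _ _ P e _ => ?_⟩
    have hP : (P : Subgroup G) = ⊥ := by
      rw [eq_bot_iff]
      intro x hx
      have : (⟨x, hx⟩ : ↥(P : Subgroup G)) = 1 := e.injective (Subsingleton.elim _ _)
      exact congrArg Subtype.val this
    refine Transfer.hasNormalPComplement_of_normal (⊤ : Subgroup G) ?_ (n := 0) (by simp)
    intro hd
    rw [Subgroup.card_top] at hd
    have h1 := P.not_dvd_index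
    rw [hP, Subgroup.index_bot] at h1
    exact h1 hd
  set W := Cfsg.centerThompsonAOf (⊤ : Subgroup S) with hW
  have hWne : W ≠ ⊥ :=
    Modules.centerThompsonAOf_ne_bot (hS.to_subgroup ⊤) (bot_ne_top.symm)
  have hWmap : ∀ φ : S ≃* S, W.map φ.toMonoidHom = W := fun φ => by
    rw [hW, Modules.map_centerThompsonAOf φ.injective, map_top_of_surjective _ φ.surjective]
  set T := centralizer (W : Set S) with hT
  have hTmap : ∀ φ : S ≃* S, T.map φ.toMonoidHom = T := fun φ => by
    rw [hT]
    have h := Modules.map_inf_centralizer (f := φ.toMonoidHom) φ.injective ⊤ W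
    rwa [top_inf_eq, map_top_of_surjective _ φ.surjective, top_inf_eq, hWmap φ] at h
  have hWT : W ≤ T := by
    obtain ⟨A, hA⟩ := Modules.maxAbIn_nonempty (⊤ : Subgroup S)
    exact Modules.comm_le_centralizer (Modules.comm_mono (Modules.centerThompsonAOf_le_of_mem hA) hA.2.1)
  set W' := W.subgroupOf T with hW'
  haveI hW'n : W'.Normal :=
    normal_subgroupOf_of_le_normalizer (centralizer_le_normalizer _)
  have hlt : Nat.card (↥T ⧸ W') < Nat.card S := by
    have h1 := W'.card_mul_index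
    rw [index_eq_card] at h1
    have h2 : 1 < Nat.card W' := Finite.one_lt_card_iff_nontrivial.mpr
      ((nontrivial_iff_ne_bot W').mpr fun h => hWne (by
        rw [← map_subgroupOf_eq_of_le hWT, ← hW', h, Subgroup.map_bot]))
    have h3 : 0 < Nat.card (↥T ⧸ W') := Nat.card_pos
    have h4 : Nat.card T ≤ Nat.card S := Subgroup.card_le_card_group T
    nlinarith
  obtain ⟨Kb, hKbc, hKbcen, hKb⟩ := ih _ hlt (↥T ⧸ W') ((hS.to_subgroup T).to_quotient W') rfl
  set q := QuotientGroup.mk' W' with hq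
  set K := (Kb.comap q).map T.subtype with hK
  have hWK : W ≤ K := fun w hw => ⟨⟨w, hWT hw⟩, by
    show q ⟨w, hWT hw⟩ ∈ Kb
    rw [show q ⟨w, hWT hw⟩ = 1 from (QuotientGroup.eq_one_iff _).2 hw]
    exact one_mem _, rfl⟩
  have hKT : K ≤ T := map_subtype_le _
  refine ⟨K, ?_, ?_, ?_⟩
  · refine characteristic_iff_map_le.2 fun φ => ?_
    let ψ : ↥T ≃* ↥T :=
      (T.equivMapOfInjective φ.toMonoidHom φ.injective).trans (MulEquiv.subgroupCongr (hTmap φ))
    have hψ : ∀ t : T, ((ψ t : T) : S) = φ t := fun t => rfl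
    have hψW : W'.map ψ.toMonoidHom = W' := by
      refine map_injective T.subtype_injective ?_
      rw [map_map, show T.subtype.comp ψ.toMonoidHom = φ.toMonoidHom.comp T.subtype from
        MonoidHom.ext hψ, ← map_map, hW', map_subgroupOf_eq_of_le hWT, hWmap φ]
    let ψb := QuotientGroup.congr W' W' ψ hψW
    have hKb' := characteristic_iff_map_eq.1 hKbc ψb
    rintro _ ⟨_, ⟨t, ht, rfl⟩, rfl⟩
    refine ⟨ψ t, ?_, hψ t⟩
    show q (ψ t) ∈ Kb
    rw [← hKb']
    exact ⟨q t, ht, rfl⟩
  · intro x hx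
    have hxT : x ∈ T := centralizer_le hWK hx
    refine ⟨⟨x, hxT⟩, hKbcen (mem_centralizer_iff.2 fun k hk => ?_), rfl⟩
    obtain ⟨t, rfl⟩ := QuotientGroup.mk'_surjective W' k
    rw [← map_mul, ← map_mul]
    congr 1
    exact Subtype.ext (mem_centralizer_iff.1 hx _ ⟨t, hk, rfl⟩)
  intro G _ _ P e hauto
  have hp' := (Fact.out : p.Prime)
  rw [map_comap_eq e K] at hauto
  set j := (P : Subgroup G).subtype.comp e.symm.toMonoidHom with hj
  have hjinj : Function.Injective j := (P : Subgroup G).subtype_injective.comp e.symm.injective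
  have hjtop : (⊤ : Subgroup S).map j = P := by
    rw [hj, ← map_map, map_top_of_surjective _ e.symm.surjective, ← MonoidHom.range_eq_map,
      Subgroup.range_subtype]
  set Wg := W.map j with hWg
  have hWgeq : Wg = Cfsg.centerThompsonAOf (P : Subgroup G) := by
    rw [hWg, hW, Modules.map_centerThompsonAOf hjinj, hjtop]
  refine Stability.npc_centerThompsonA hp P ?_
  rw [← hWgeq]
  set C := centralizer (Wg : Set G) with hC
  have hTg : T.map j = (P : Subgroup G) ⊓ C := by
    have h := Modules.map_inf_centralizer (f := j) hjinj ⊤ W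
    rwa [top_inf_eq, hjtop] at h
  set L := normalizer (Wg : Set G) with hL
  have hPL : (P : Subgroup G) ≤ L := by
    rw [hL, hWgeq]
    exact le_normalizer.trans ((Stability.centerThompsonAFunctor p).normalizer_le _)
  have hCL : C ≤ L := centralizer_le_normalizer _
  -- the Sylow subgroup of `C`
  have hsylC : ¬ p ∣ ((P : Subgroup G).subgroupOf C).index := by
    intro hd
    haveI : (C.subgroupOf L).Normal :=
      normal_subgroupOf_of_le_normalizer (Modules.normalizes_centralizer le_rfl)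
    have h1 := PSolv.relIndex_dvd_index_of_normal_right ((P : Subgroup G).subgroupOf L)
      (C.subgroupOf L)
    rw [relIndex_subgroupOf hCL] at h1
    exact P.not_dvd_index ((hd.trans h1).trans (relIndex_dvd_index_of_le hPL))
  let TC : Sylow p C := (P.2.comap_subtype (K := C)).toSylow hsylC
  -- `T` onto that Sylow subgroup
  let i : ↥T →* ↥C := (j.comp T.subtype).codRestrict C fun t => by
    have h1 : j t ∈ T.map j := ⟨t, t.2, rfl⟩
    rw [hTg] at h1
    exact h1.2
  have hiC : ∀ t, ((i t : C) : G) = j t := fun t => rfl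
  have hirange : i.range = (TC : Subgroup C) := by
    ext c
    show c ∈ i.range ↔ (c : G) ∈ (P : Subgroup G)
    constructor
    · rintro ⟨t, rfl⟩
      exact (hTg.le ⟨t, t.2, rfl⟩).1
    · intro hc
      obtain ⟨s, hs, hsc⟩ := hTg.ge ⟨hc, c.2⟩
      exact ⟨⟨s, hs⟩, Subtype.ext hsc⟩
  set Wc := Wg.subgroupOf C with hWc
  have hWcC : Wc ≤ center C := fun w hw => mem_center_iff.2 fun c => Subtype.ext
    (mem_centralizer_iff.1 c.2 _ hw).symm
  haveI hWcn : Wc.Normal :=
    ⟨fun w hw c => by rwa [mem_center_iff.1 (hWcC hw) c, mul_inv_cancel_right]⟩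
  set π := QuotientGroup.mk' Wc with hπ
  set ρ := π.comp i with hρ
  have hρker : ρ.ker = W' := by
    ext t
    rw [MonoidHom.mem_ker, hρ, MonoidHom.comp_apply, hπ, QuotientGroup.mk'_apply,
      QuotientGroup.eq_one_iff, hWc, mem_subgroupOf, hiC, hWg, mem_map_iff_mem hjinj, hW',
      mem_subgroupOf]
  let Q := TC.mapSurjective (QuotientGroup.mk'_surjective Wc)
  have hρrange : ρ.range = (Q : Subgroup (↥C ⧸ Wc)) := by
    rw [hρ, MonoidHom.range_comp, hirange]
    rfl
  let eQ : (↥T ⧸ W') ≃* ↥(Q : Subgroup (↥C ⧸ Wc)) :=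
    (QuotientGroup.quotientMulEquivOfEq hρker.symm).trans
      ((QuotientGroup.quotientKerEquivRange ρ).trans (MulEquiv.subgroupCongr hρrange))
  have heQ : ∀ t, ((eQ (q t) : ↥(Q : Subgroup (↥C ⧸ Wc))) : ↥C ⧸ Wc) = ρ t := fun t => rfl
  have himg : (Kb.comap (eQ.symm : ↥(Q : Subgroup (↥C ⧸ Wc)) →* ↥T ⧸ W')).map
      (Q : Subgroup (↥C ⧸ Wc)).subtype = (Kb.comap q).map ρ := by
    rw [show ρ = ((Q : Subgroup (↥C ⧸ Wc)).subtype.comp eQ.symm.symm.toMonoidHom).comp q from
        MonoidHom.ext fun t => (heQ t).symm,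
      ← map_map,
      map_comap_eq_self_of_surjective (QuotientGroup.mk'_surjective W' : Function.Surjective q)]
    exact map_comap_eq eQ.symm Kb
  -- images in `G`
  have hKg : K.map j = ((Kb.comap q).map i).map C.subtype := by
    rw [hK, map_map, map_map]
    rfl
  have hWcI : Wc ≤ (Kb.comap q).map i := by
    intro w hw
    obtain ⟨w₀, hw₀, hww⟩ := hw
    refine ⟨⟨w₀, hWT hw₀⟩, ?_, Subtype.ext hww⟩
    show q ⟨w₀, hWT hw₀⟩ ∈ Kb
    rw [show q ⟨w₀, hWT hw₀⟩ = 1 from (QuotientGroup.eq_one_iff _).2 hw₀]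
    exact one_mem _
  have hquot : Cfsg.HasNormalPComplement p (↥C ⧸ Wc) := by
    refine hKb _ Q eQ.symm ?_
    rw [himg]
    intro g hg hgo
    obtain ⟨c, rfl⟩ := QuotientGroup.mk'_surjective Wc g
    obtain ⟨x, hx, hxo, hxc⟩ := exists_coprime_preimage π hgo
    rw [← hxc] at hg ⊢
    have hxn : x ∈ normalizer (((Kb.comap q).map i : Subgroup C) : Set C) := by
      have h1 : ((Kb.comap q).map i) = (((Kb.comap q).map i).map π).comap π :=
        (comap_map_eq_self (by rw [hπ, QuotientGroup.ker_mk']; exact hWcI)).symm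
      rw [h1, map_map]
      exact le_normalizer_comap π hg
    have h2 : (x : G) ∈ centralizer ((K.map j : Subgroup G) : Set G) := by
      refine hauto x ?_ (by rwa [orderOf_coe])
      rw [hKg]
      exact le_normalizer_map C.subtype ⟨x, hxn, rfl⟩
    refine mem_centralizer_iff.2 ?_
    rintro _ ⟨t, ht, rfl⟩
    rw [hρ, MonoidHom.comp_apply, ← map_mul, ← map_mul]
    congr 1
    refine Subtype.ext (mem_centralizer_iff.1 h2 _ ?_)
    rw [hKg]
    exact ⟨i t, ⟨t, ht, rfl⟩, rfl⟩
  have hWcp : IsPGroup p Wc :=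
    (P.2.to_le (by rw [hWgeq]; exact Modules.centerThompsonAOf_le _ : Wg ≤ (P : Subgroup G))).comap_subtype
  have hCnpc : Cfsg.HasNormalPComplement p C := npc_of_central_quotient Wc hWcC hWcp hquot
  -- `L`
  rw [Transfer.hasNormalPComplement_iff] at hCnpc ⊢
  intro hd
  apply hCnpc
  rw [← Subgroup.card_map_of_injective C.subtype_injective]
  refine (hd.trans (Subgroup.card_map_of_injective L.subtype_injective).symm.dvd).trans
    (card_dvd_of_le ?_)
  rw [map_le_iff_le_comap]
  refine (closure_le _).2 fun x hx => ?_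
  have hxo : (orderOf x).Coprime p := hx
  suffices hxC : (x : G) ∈ C by
    refine ⟨⟨x, hxC⟩, Transfer.mem_pResidual_of_coprime ?_, rfl⟩
    rw [← orderOf_coe]
    rwa [← orderOf_coe] at hxo
  set C' := C.subgroupOf L with hC'
  haveI hC'n : C'.Normal :=
    normal_subgroupOf_of_le_normalizer (Modules.normalizes_centralizer le_rfl)
  set σ := QuotientGroup.mk' C' with hσ
  obtain ⟨c, hc, n, hn, hcn⟩ : ∃ c ∈ C, ∃ n ∈ normalizer ((T.map j : Subgroup G) : Set G),
      c * n = (x : G) := by
    let T' : Sylow p C' := ((P.2.comap_subtype (K := L)).comap_subtype (K := C')).toSylow (by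
      intro hd'
      refine hsylC ?_
      change p ∣ (P : Subgroup G).relIndex C
      rw [← relIndex_subgroupOf hCL]
      exact hd')
    have h := T'.normalizer_sup_eq_top
    obtain ⟨n, hn, c, hc, hnc⟩ := mem_sup_of_normal_right.1 (h.ge (mem_top x))
    refine ⟨(n : G) * c * (n : G)⁻¹,
      (mem_normalizer_iff.1 (Modules.normalizes_centralizer le_rfl n.2) _).1 hc, n, ?_, by
        rw [← hnc]; simp⟩
    have h2 := le_normalizer_map L.subtype ⟨n, hn, rfl⟩
    rwa [show ((T' : Subgroup C').map C'.subtype).map L.subtype = T.map j from by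
      rw [show (T' : Subgroup C').map C'.subtype = (P : Subgroup G).subgroupOf L ⊓ C' from
        subgroupOf_map_subtype _ _, hTg, hC', map_inf _ _ _ L.subtype_injective,
        map_subgroupOf_eq_of_le hPL, map_subgroupOf_eq_of_le hCL]] at h2
  have hnL : n ∈ L := by
    have : n = c⁻¹ * x := by rw [← hcn]; group
    rw [this]
    exact mul_mem (inv_mem (hCL hc)) x.2
  have hσn : σ ⟨n, hnL⟩ = σ x := by
    have : x = ⟨c, hCL hc⟩ * ⟨n, hnL⟩ := Subtype.ext hcn.symm
    rw [this, map_mul, show σ ⟨c, hCL hc⟩ = 1 from (QuotientGroup.eq_one_iff _).2 hc, one_mul]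
  obtain ⟨y, hy, hyo, hyn⟩ := exists_coprime_preimage σ (g := (⟨n, hnL⟩ : L))
    (by rw [hσn]; exact hxo.coprime_dvd_left (orderOf_map_dvd σ x))
  have hyT : (y : G) ∈ normalizer ((T.map j : Subgroup G) : Set G) := by
    obtain ⟨k, rfl⟩ := mem_zpowers_iff.1 hy
    rw [SubgroupClass.coe_zpow]
    exact zpow_mem hn k
  -- `y` normalizes the image of `K`
  have hyK : (y : G) ∈ normalizer ((K.map j : Subgroup G) : Set G) := by
    have hinv : ∀ (R : Subgroup S), (y : G) ∈ normalizer ((R.map j : Subgroup G) : Set G) →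
        ∀ r ∈ R, (y : G) * j r * (y : G)⁻¹ ∈ R.map j := fun R hR r hr =>
      (mem_normalizer_iff.1 hR _).1 ⟨r, hr, rfl⟩
    let φ : ↥T ≃* ↥T :=
      ((T.equivMapOfInjective j hjinj).trans
        (((MulAut.conj (y : G)).subgroupMap (T.map j)).trans
          (MulEquiv.subgroupCongr (mem_normalizer_iff_map_conj_eq.1 hyT)))).trans
        (T.equivMapOfInjective j hjinj).symm
    have hφ : ∀ t : T, j (φ t : S) = (y : G) * j t * (y : G)⁻¹ := fun t => by
      have := (T.equivMapOfInjective j hjinj).apply_symm_apply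
        ((MulEquiv.subgroupCongr (mem_normalizer_iff_map_conj_eq.1 hyT))
          ((MulAut.conj (y : G)).subgroupMap (T.map j) (T.equivMapOfInjective j hjinj t)))
      exact congrArg Subtype.val this
    have hφW : W'.map φ.toMonoidHom = W' := by
      refine eq_of_le_of_card_ge ?_ (card_map_of_injective φ.injective).ge
      rintro _ ⟨t, ht, rfl⟩
      obtain ⟨w, hw, hwe⟩ := hinv W y.2 t ht
      rw [← hφ] at hwe
      show ((φ t : T) : S) ∈ W
      rwa [← hjinj hwe]
    have hKb' := characteristic_iff_map_eq.1 hKbc (QuotientGroup.congr W' W' φ hφW)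
    rw [← Fusion.cj_eq_iff_mem_normalizer]
    refine eq_of_le_of_card_ge ?_ (Fusion.card_cj _ _).ge
    rintro _ ⟨_, ⟨_, ⟨t, ht, rfl⟩, rfl⟩, rfl⟩
    refine ⟨φ t, ⟨φ t, ?_, rfl⟩, hφ t⟩
    show q (φ t) ∈ Kb
    rw [← hKb']
    exact ⟨q t, ht, rfl⟩
  have hyC := centralizer_le (map_mono (f := j) hWK) (hauto y hyK (by rwa [orderOf_coe]))
  have h1 : σ y = 1 := (QuotientGroup.eq_one_iff _).2 hyC
  rw [hyn, hσn] at h1
  exact (QuotientGroup.eq_one_iff x).1 h1

end Cfsg.Agent.EvenLocal.Decider
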