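import Cfsg.Agent.Fusion.Alperin
import Cfsg.Agent.Fusion.StrongClosure
import Cfsg.Agent.Modules.Fixed
import Cfsg.Agent.PSolv.OmegaCenter

/-!
A characteristic functor of a strongly closed subgroup controls fusion when it does so in each
local subgroup.
-/

set_option autoImplicit false
set_option linter.style.haveILetI false

namespace Cfsg.Agent.EvenLocal

open Subgroup Fusion

variable {G : Type*} [Group G] [Finite G] {p : ℕ} [Fact p.Prime]

/-- Fusion of `p`-subgroups in `K L` (`K` a normal `p'`-subgroup) takes place in `L`. -/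
theorem exists_fusion_in_factor {K L T H : Subgroup G} (hLK : L ≤ normalizer (K : Set G))
    (hK : (Nat.card K).Coprime p) (hT : IsPGroup p T) (hTL : T ≤ L) (hHT : H ≤ T) {y : G}
    (hy : y ∈ K ⊔ L) (hyH : cj y H ≤ T) :
    ∃ l ∈ L, ∀ a ∈ H, y * a * y⁻¹ = l * a * l⁻¹ := by
  rw [← SetLike.mem_coe, sup_comm, coe_mul_of_left_le_normalizer_right L K hLK] at hy
  obtain ⟨l, hl, k, hk, rfl⟩ := hy
  set K₀ := K ⊓ L with hK₀
  set H' := cj k H with hH'
  have hHN : H ≤ normalizer (K₀ : Set G) :=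
    (hHT.trans hTL).trans (Modules.normalizes_inf hLK le_normalizer)
  have hH'L : H' ≤ L := by
    rintro - ⟨a, ha, rfl⟩
    have h := hTL (hyH ⟨a, ha, rfl⟩)
    have := mul_mem (mul_mem (inv_mem hl) h) hl
    simpa [mul_assoc] using this
  have hH'le : H' ≤ H ⊔ K₀ := by
    rintro - ⟨a, ha, rfl⟩
    have haL := hTL (hHT ha)
    have h1 : k * a * k⁻¹ * a⁻¹ ∈ L := mul_mem (hH'L ⟨a, ha, rfl⟩) (inv_mem haL)
    have h2 : k * a * k⁻¹ * a⁻¹ ∈ K := by
      rw [show k * a * k⁻¹ * a⁻¹ = k * (a * k⁻¹ * a⁻¹) by group]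
      exact mul_mem hk ((mem_normalizer_iff.1 (hLK haL) _).1 (inv_mem hk))
    rw [show (MulAut.conj k).toMonoidHom a = (k * a * k⁻¹ * a⁻¹) * a by simp]
    exact mul_mem (mem_sup_right ⟨h2, h1⟩) (mem_sup_left ha)
  have hcardp : ∀ X : Subgroup G, X ≤ H ⊔ K₀ → Nat.card X = Nat.card H →
      ¬ p ∣ X.relIndex (H ⊔ K₀) := by
    intro X hX hcard hd
    have h1 := Modules.card_sup_mul_card_inf hHN
    have h2 := Modules.card_mul_relIndex_of_le hX
    have h3 : X.relIndex (H ⊔ K₀) ∣ Nat.card K₀ := by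
      refine ⟨Nat.card ↥(H ⊓ K₀), ?_⟩
      refine Nat.eq_of_mul_eq_mul_left (Nat.card_pos (α := X)) ?_
      rw [← mul_assoc, h2, h1, hcard]
    exact ((Fact.out : p.Prime).coprime_iff_not_dvd.1 hK.symm)
      (hd.trans (h3.trans (card_dvd_of_le inf_le_left)))
  have hHp := hT.to_le hHT
  obtain ⟨u, hu, huH⟩ := exists_conj_of_relIndex (isPGroup_cj hHp k) hHp hH'le le_sup_left
    (hcardp H' hH'le (card_cj k H)) (hcardp H le_sup_left rfl)
  rw [← SetLike.mem_coe, coe_mul_of_left_le_normalizer_right H K₀ hHN] at hu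
  obtain ⟨h₀, hh₀, c, hc, rfl⟩ := hu
  have hck : cj (c * k) H = H := by
    have := congrArg (cj h₀⁻¹) huH
    rwa [cj_cj, cj_cj, cj_eq_self_of_mem (inv_mem hh₀), ← mul_assoc, inv_mul_cancel,
      one_mul] at this
  refine ⟨l * c⁻¹, mul_mem hl (inv_mem hc.2), fun a ha => ?_⟩
  have hck' : c * k ∈ K := mul_mem hc.1 hk
  have hz : c * k * a * (c * k)⁻¹ * a⁻¹ = 1 := by
    have h1 : c * k * a * (c * k)⁻¹ * a⁻¹ ∈ H :=
      mul_mem (hck.le ⟨a, ha, rfl⟩) (inv_mem ha)
    have h2 : c * k * a * (c * k)⁻¹ * a⁻¹ ∈ K := by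
      rw [show c * k * a * (c * k)⁻¹ * a⁻¹ = c * k * (a * (c * k)⁻¹ * a⁻¹) by group]
      exact mul_mem hck' ((mem_normalizer_iff.1 (hLK (hTL (hHT ha))) _).1 (inv_mem hck'))
    obtain ⟨j, hj⟩ := hHp ⟨_, h1⟩
    refine orderOf_eq_one_iff.1 (Nat.eq_one_of_dvd_coprimes (hK.symm.pow_left j)
      (orderOf_dvd_of_pow_eq_one (congrArg Subtype.val hj)) (orderOf_dvd_natCard K h2))
  rw [mul_inv_eq_one] at hz
  calc l * k * a * (l * k)⁻¹ = l * c⁻¹ * (c * k * a * (c * k)⁻¹) * (l * c⁻¹)⁻¹ := by group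
    _ = l * c⁻¹ * a * (l * c⁻¹)⁻¹ := by rw [hz]

variable (P : Sylow p G) (D : Subgroup G) (W : Subgroup G → Subgroup G) (Ok : Subgroup G → Prop)

/-- `M` acts on `A` as `g` does. -/
def ActsLike (M A : Subgroup G) (g : G) : Prop := ∃ m ∈ M, ∀ a ∈ A, g * a * g⁻¹ = m * a * m⁻¹

theorem controls_fusion_of_locals (hD : Cfsg.IsStronglyClosed D (P : Subgroup G))
    (hWle : ∀ T : Subgroup G, W T ≤ T)
    (hWne : ∀ T : Subgroup G, IsPGroup p T → T ≠ ⊥ → W T ≠ ⊥)
    (hWN : ∀ T : Subgroup G, normalizer (T : Set G) ≤ normalizer (W T : Set G))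
    (hOkH : ∀ H : Subgroup G, H ≤ (P : Subgroup G) →
      (P : Subgroup G) ⊓ centralizer (H : Set G) ≤ H → Ok H)
    (hOkW : ∀ T : Subgroup G, T ≤ (P : Subgroup G) →
      (P : Subgroup G) ⊓ centralizer ((P : Subgroup G) : Set G) ≤ T → Ok (W (D ⊓ T)))
    (hOkconj : ∀ (X : Subgroup G) (g : G), Ok X → Ok (cj g X))
    (hloc : ∀ X : Subgroup G, X ≤ (P : Subgroup G) → X ≠ ⊥ → Ok X →
      ¬ p ∣ ((P : Subgroup G) ⊓ normalizer (X : Set G)).relIndex (normalizer (X : Set G)) →
      ∃ K : Subgroup G, K ≤ normalizer (X : Set G) ∧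
        normalizer (X : Set G) ≤ normalizer (K : Set G) ∧ (Nat.card K).Coprime p ∧
        normalizer (X : Set G) ≤ K ⊔ (normalizer (X : Set G) ⊓
          normalizer (W (D ⊓ ((P : Subgroup G) ⊓ normalizer (X : Set G))) : Set G))) :
    ∀ A : Subgroup G, A ≤ (P : Subgroup G) → ∀ g : G, cj g A ≤ (P : Subgroup G) →
      ActsLike (normalizer (W D : Set G)) A g := by
  have hPD : (P : Subgroup G) ≤ normalizer (D : Set G) := le_normalizer_iff.2 fun g hg x hx =>
    hD.2 x hx g (mul_mem (mul_mem hg (hD.1 hx)) (inv_mem hg))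
  set Mn := normalizer (W D : Set G) with hMn
  have hNPD : normalizer ((P : Subgroup G) : Set G) ≤ normalizer (D : Set G) :=
    le_normalizer_iff.2 fun g hg x hx =>
      hD.2 x hx g ((mem_normalizer_iff.1 hg x).1 (hD.1 hx))
  by_cases hDbot : D = ⊥
  · intro A _ g _
    have hWb : W D = ⊥ := le_bot_iff.1 ((hWle D).trans hDbot.le)
    refine ⟨g, ?_, fun a _ => rfl⟩
    rw [hMn, hWb, normalizer_eq_top]
    trivial
  set Z := (P : Subgroup G) ⊓ centralizer ((P : Subgroup G) : Set G) with hZ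
  have hDZ : D ⊓ Z ≠ ⊥ := by
    have h := Modules.inf_centralizer_ne_bot_of_isPGroup (V := D) (A := (P : Subgroup G))
      (P.2.to_le hD.1) hDbot hPD fun a ha => by
        obtain ⟨k, hk⟩ := P.2 ⟨a, ha⟩
        exact ⟨k, by rw [show a ^ p ^ k = 1 from congrArg Subtype.val hk]; exact one_mem _⟩
    refine fun hb => h (le_bot_iff.1 (le_trans ?_ hb.le))
    exact fun x hx => ⟨hx.1, hD.1 hx.1, hx.2⟩
  suffices key : ∀ (n : ℕ) (A : Subgroup G), A ≤ (P : Subgroup G) →
      Nat.card (P : Subgroup G) ≤ Nat.card A + n → ∀ g : G, cj g A ≤ (P : Subgroup G) →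
      ActsLike Mn A g from fun A hA g hg => key _ A hA le_add_self g hg
  intro n
  induction n using Nat.strong_induction_on with
  | _ n ih =>
  intro A hA hn g hg
  have hbig : ∀ B : Subgroup G, B ≤ (P : Subgroup G) → Nat.card A < Nat.card B →
      ∀ x : G, cj x B ≤ (P : Subgroup G) → ActsLike Mn B x := by
    intro B hB hlt x hx
    refine ih (Nat.card (P : Subgroup G) - Nat.card B) ?_ B hB (by omega) x hx
    have := card_le_of_le hB
    omega
  -- fusion inside a local subgroup with a large Sylow subgroup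
  have hlocal : ∀ (j : ℕ) (X : Subgroup G), X ≤ (P : Subgroup G) → X ≠ ⊥ → Ok X →
      ¬ p ∣ ((P : Subgroup G) ⊓ normalizer (X : Set G)).relIndex (normalizer (X : Set G)) →
      Nat.card A < Nat.card ↥((P : Subgroup G) ⊓ normalizer (X : Set G)) →
      Nat.card (P : Subgroup G) ≤ Nat.card ↥((P : Subgroup G) ⊓ normalizer (X : Set G)) + j →
      ∀ H : Subgroup G, H ≤ (P : Subgroup G) ⊓ normalizer (X : Set G) → ∀ y ∈ normalizer (X : Set G),
        cj y H ≤ (P : Subgroup G) ⊓ normalizer (X : Set G) → ActsLike Mn H y := by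
    intro j
    induction j using Nat.strong_induction_on with
    | _ j jh =>
    intro X hXP hX hOk hsyl hAT hj H hH y hy hyH
    obtain ⟨K, hKN, hNK, hKc, hfac⟩ := hloc X hXP hX hOk hsyl
    set T := (P : Subgroup G) ⊓ normalizer (X : Set G) with hT
    have hTP : T ≤ (P : Subgroup G) := inf_le_left
    have hZT : Z ≤ T := le_inf inf_le_left fun z hz =>
      centralizer_le_normalizer _ (centralizer_le hXP hz.2)
    set W' := W (D ⊓ T) with hW'
    have hTW : T ≤ normalizer (W' : Set G) :=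
      (Modules.normalizes_inf (hTP.trans hPD) le_normalizer).trans (hWN _)
    obtain ⟨l, hl, hly⟩ := exists_fusion_in_factor (p := p)
      (inf_le_left.trans hNK) hKc (P.2.to_le hTP) (le_inf inf_le_right hTW) hH (hfac hy) hyH
    by_cases hTeq : T = (P : Subgroup G)
    · refine ⟨l, ?_, hly⟩
      have e : D ⊓ T = D := by rw [hTeq, inf_eq_left]; exact hD.1
      have := hl.2
      rwa [hW', e] at this
    have hW'ne : W' ≠ ⊥ := hWne _ ((P.2.to_le hTP).to_le inf_le_right) fun hb =>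
      hDZ (le_bot_iff.1 (le_trans (inf_le_inf_left D hZT) hb.le))
    have hW'P : W' ≤ (P : Subgroup G) := (hWle _).trans (inf_le_right.trans hTP)
    set S₁ := (P : Subgroup G) ⊓ normalizer (W' : Set G) with hS₁
    have hlt : Nat.card T < Nat.card S₁ := by
      have h1 := lt_normalizer_inf P.2 (lt_of_le_of_ne hTP hTeq)
      have h2 : (P : Subgroup G) ⊓ normalizer (T : Set G) ≤ S₁ := le_inf inf_le_left
        ((Modules.normalizes_inf (inf_le_left.trans hPD) inf_le_right).trans (hWN _))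
      exact lt_of_lt_of_le (Set.ncard_lt_ncard h1 (Set.toFinite _)) (card_le_of_le h2)
    obtain ⟨R, hR, hRsyl⟩ := exists_sylow_inf_relIndex (U := S₁) (N := normalizer (W' : Set G))
      (P.2.to_le inf_le_left) inf_le_right
    obtain ⟨x, hx⟩ := exists_cj_sylow R P
    have hxS : cj x S₁ ≤ (P : Subgroup G) := (cj_mono x hR).trans hx.le
    obtain ⟨m, hm, hmx⟩ := hbig S₁ inf_le_left (by omega) x hxS
    have hW'S : W' ≤ S₁ := le_inf hW'P le_normalizer
    have hcjle : ∀ B : Subgroup G, B ≤ S₁ → cj m B = cj x B := by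
      intro B hB
      ext z
      constructor
      · rintro ⟨b, hb, rfl⟩; exact ⟨b, hb, hmx b (hB hb)⟩
      · rintro ⟨b, hb, rfl⟩; exact ⟨b, hb, (hmx b (hB hb)).symm⟩
    have hX'' : cj m W' = cj x W' := hcjle W' hW'S
    have hTS : T ≤ S₁ := le_inf hTP hTW
    have hsyl' : ¬ p ∣ ((P : Subgroup G) ⊓ normalizer (cj m W' : Set G)).relIndex
        (normalizer (cj m W' : Set G)) := by
      rw [hX'', ← cj_normalizer, ← hx, ← cj_inf,
        relIndex_map_map_of_injective _ _ (MulAut.conj x).injective]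
      exact hRsyl
    have hbigS : Nat.card S₁ ≤ Nat.card ↥((P : Subgroup G) ⊓ normalizer (cj m W' : Set G)) := by
      rw [← card_cj m S₁]
      refine card_le_of_le (le_inf ((hcjle S₁ le_rfl).le.trans hxS) ?_)
      rw [← cj_normalizer]
      exact cj_mono m inf_le_right
    have hl2 : l ∈ normalizer (W' : Set G) := hl.2
    have hle'' := card_le_of_le
      (inf_le_left : (P : Subgroup G) ⊓ normalizer (cj m W' : Set G) ≤ (P : Subgroup G))
    have hlast : cj (m * l * m⁻¹) (cj m H) ≤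
        (P : Subgroup G) ⊓ normalizer (cj m W' : Set G) := by
      have he : cj (m * l * m⁻¹) (cj m H) = cj m (cj y H) := by
        rw [cj_cj, cj_cj, inv_mul_cancel_right]
        ext z
        constructor
        · rintro ⟨b, hb, rfl⟩
          refine ⟨b, hb, ?_⟩
          show m * y * b * (m * y)⁻¹ = m * l * b * (m * l)⁻¹
          calc m * y * b * (m * y)⁻¹ = m * (y * b * y⁻¹) * m⁻¹ := by group
            _ = m * (l * b * l⁻¹) * m⁻¹ := by rw [hly b hb]
            _ = _ := by group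
        · rintro ⟨b, hb, rfl⟩
          refine ⟨b, hb, ?_⟩
          show m * l * b * (m * l)⁻¹ = m * y * b * (m * y)⁻¹
          calc m * l * b * (m * l)⁻¹ = m * (l * b * l⁻¹) * m⁻¹ := by group
            _ = m * (y * b * y⁻¹) * m⁻¹ := by rw [hly b hb]
            _ = _ := by group
      rw [he]
      refine le_inf ((cj_mono m (hyH.trans hTS)).trans ((hcjle S₁ le_rfl).le.trans hxS)) ?_
      rw [← cj_normalizer]
      exact cj_mono m (hyH.trans hTW)
    obtain ⟨m₂, hm₂, hm₂y⟩ := jh (Nat.card (P : Subgroup G) -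
        Nat.card ↥((P : Subgroup G) ⊓ normalizer (cj m W' : Set G))) (by omega) (cj m W')
      (hX''.le.trans ((cj_mono x hW'S).trans hxS))
      (fun hb => hW'ne ((map_eq_bot_iff_of_injective _ (MulAut.conj m).injective).1 hb))
      (hOkconj _ m (hOkW T hTP hZT)) hsyl' (by omega) (by omega) (cj m H)
      (le_inf ((cj_mono m (hH.trans hTS)).trans ((hcjle S₁ le_rfl).le.trans hxS))
        (by rw [← cj_normalizer]; exact cj_mono m (hH.trans hTW)))
      (m * l * m⁻¹) (by rw [← cj_normalizer]; exact ⟨l, hl2, rfl⟩) hlast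
    refine ⟨m⁻¹ * m₂ * m, mul_mem (mul_mem (inv_mem hm) hm₂) hm, fun a ha => ?_⟩
    have := hm₂y (m * a * m⁻¹) ⟨a, ha, rfl⟩
    calc y * a * y⁻¹ = l * a * l⁻¹ := hly a ha
      _ = m⁻¹ * (m * l * m⁻¹ * (m * a * m⁻¹) * (m * l * m⁻¹)⁻¹) * m := by group
      _ = m⁻¹ * (m₂ * (m * a * m⁻¹) * m₂⁻¹) * m := by rw [this]
      _ = m⁻¹ * m₂ * m * a * (m⁻¹ * m₂ * m)⁻¹ := by group
  -- one step of a chain
  have hstep : ∀ (H : Subgroup G), H ≤ (P : Subgroup G) → Nat.card A ≤ Nat.card H →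
      ¬ p ∣ ((P : Subgroup G) ⊓ normalizer (H : Set G)).relIndex (normalizer (H : Set G)) →
      ∀ x ∈ normalizer (H : Set G), ActsLike Mn H x := by
    intro H hHP hAH hsyl x hx
    have hxH : cj x H = H := cj_eq_of_mem hx
    rcases hAH.lt_or_eq with hlt | heq
    · exact hbig H hHP hlt x (hxH.le.trans hHP)
    rcases eq_or_ne H ⊥ with hb | hb
    · refine ⟨1, one_mem _, fun a ha => ?_⟩
      rw [hb, mem_bot] at ha
      simp [ha]
    by_cases hHeq : H = (P : Subgroup G)
    · exact ⟨x, hWN D (hNPD (hHeq ▸ hx)), fun a _ => rfl⟩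
    by_cases hcen : (P : Subgroup G) ⊓ centralizer (H : Set G) ≤ H
    · have hlt' := lt_normalizer_inf P.2 (lt_of_le_of_ne hHP hHeq)
      refine hlocal _ H hHP hb (hOkH H hHP hcen) hsyl ?_ le_add_self H
        (le_inf hHP le_normalizer) x hx (hxH.le.trans (le_inf hHP le_normalizer))
      rw [heq]
      exact Set.ncard_lt_ncard hlt' (Set.toFinite _)
    set R := (P : Subgroup G) ⊓ centralizer (H : Set G) with hR
    set N := normalizer (H : Set G) with hN
    set C := centralizer (H : Set G) with hC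
    have hCN : C ≤ N := centralizer_le_normalizer _
    have hNC : N ≤ normalizer (C : Set G) := Modules.normalizes_centralizer le_rfl
    have hRsyl : ¬ p ∣ R.relIndex C := by
      have e : R = ((P : Subgroup G) ⊓ N) ⊓ C := by
        rw [hR, inf_assoc, inf_eq_right.2 hCN]
      haveI : (C.subgroupOf N).Normal := normal_subgroupOf_of_le_normalizer hNC
      intro hd
      rw [e, inf_relIndex_right] at hd
      refine hsyl (hd.trans ?_)
      have h1 := PSolv.relIndex_dvd_index_of_normal_right (((P : Subgroup G) ⊓ N).subgroupOf N)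
        (C.subgroupOf N)
      rwa [relIndex_subgroupOf hCN] at h1
    have hRC : R ≤ C := inf_le_right
    have hcjC : cj x C = C := cj_eq_of_mem (hNC hx)
    obtain ⟨c, hc, hcR⟩ := exists_conj_of_relIndex (isPGroup_cj (P.2.to_le inf_le_left) x)
      (P.2.to_le inf_le_left) ((cj_mono x hRC).trans hcjC.le) hRC (by
        conv => enter [1, 2, 2]; rw [← hcjC]
        rw [relIndex_map_map_of_injective _ _ (MulAut.conj x).injective]
        exact hRsyl) hRsyl
    have hcH : ∀ a ∈ H, c * a * c⁻¹ = a := fun a ha => by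
      rw [← mem_centralizer_iff.1 hc a ha, mul_inv_cancel_right]
    have hsame : ∀ a ∈ H, c * x * a * (c * x)⁻¹ = x * a * x⁻¹ := fun a ha => by
      rw [← hcH (x * a * x⁻¹) (hxH.le ⟨a, ha, rfl⟩)]
      group
    have hlt' : H < H ⊔ R := left_lt_sup.2 hcen
    obtain ⟨m, hm, hma⟩ := hbig (H ⊔ R) (sup_le hHP inf_le_left)
      (heq ▸ Set.ncard_lt_ncard hlt' (Set.toFinite _)) (c * x) (by
        rw [cj, Subgroup.map_sup]
        refine sup_le ?_ ?_
        · rintro - ⟨a, ha, rfl⟩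
          show c * x * a * (c * x)⁻¹ ∈ (P : Subgroup G)
          rw [hsame a ha]
          exact hHP (hxH.le ⟨a, ha, rfl⟩)
        · show cj (c * x) R ≤ _
          rw [← cj_cj, hcR]
          exact inf_le_left)
    exact ⟨m, hm, fun a ha => (hsame a ha).symm.trans (hma a (mem_sup_left ha))⟩
  -- along a chain
  have hchain : ∀ {B : Subgroup G} {z : G}, FusionChain P B z → Nat.card A ≤ Nat.card B →
      ActsLike Mn B z⁻¹ := by
    intro B z hz
    induction hz with
    | one B => exact fun _ => ⟨1, one_mem _, fun a _ => by simp⟩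
    | @step B R x y htame hx _ hB hrest ihr =>
      intro hAB
      obtain ⟨m₁, hm₁, h₁⟩ := hstep ((P : Subgroup G) ⊓ R) inf_le_left
        (hAB.trans (card_le_of_le hB)) htame.1 x⁻¹ (inv_mem hx)
      obtain ⟨m₂, hm₂, h₂⟩ := ihr (hAB.trans (card_cj x⁻¹ B).ge)
      refine ⟨m₂ * m₁, mul_mem hm₂ hm₁, fun a ha => ?_⟩
      calc (x * y)⁻¹ * a * ((x * y)⁻¹)⁻¹ = y⁻¹ * (x⁻¹ * a * x⁻¹⁻¹) * y⁻¹⁻¹ := by group
        _ = m₂ * (x⁻¹ * a * x⁻¹⁻¹) * m₂⁻¹ := h₂ _ ⟨a, ha, by simp⟩
        _ = m₂ * (m₁ * a * m₁⁻¹) * m₂⁻¹ := by rw [h₁ a (hB ha)]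
        _ = _ := by group
  have h := hchain (exists_chain P hA (g := g⁻¹) (by rwa [inv_inv])) le_rfl
  rwa [inv_inv] at h

/-- The same for subsets. -/
theorem controlsStrongFusionOf_of_subgroups {M : Subgroup G} (P : Subgroup G)
    (h : ∀ A : Subgroup G, A ≤ P → ∀ g : G, cj g A ≤ P → ActsLike M A g)
    (A : Set G) (hA : A ⊆ (P : Set G)) : ∀ g : G, (fun a => g * a * g⁻¹) '' A ⊆ (P : Set G) →
      ∃ x ∈ M, ∀ a ∈ A, g * a * g⁻¹ = x * a * x⁻¹ := by
  intro g hg
  have hle : cj g (closure A) ≤ P := by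
    rw [cj, MonoidHom.map_closure, closure_le]
    exact hg
  obtain ⟨m, hm, hma⟩ := h (closure A) ((closure_le _).2 hA) g hle
  exact ⟨m, hm, fun a ha => hma a (subset_closure ha)⟩

end Cfsg.Agent.EvenLocal
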