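import Cfsg.Agent.Linear.GLTwo
import Cfsg.Agent.Linear.Torus
import Cfsg.Agent.Arith.Zsigmondy
import Cfsg.Agent.Arith.CyclotomicOrder

/-!
A unipotent element of `SL(2,q)` and one of its conjugates have a product of order divisible by
any given odd divisor of `q + 1`.
-/

set_option autoImplicit false

namespace Cfsg.Agent.EvenLocal

open Matrix Linear
open scoped MatrixGroups

variable {F : Type*} [Field F]

theorem sl2_sq (M : SL(2, F)) :
    (M.1 * M.1 : Matrix (Fin 2) (Fin 2) F) = (M 0 0 + M 1 1) • M.1 - 1 := by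
  have h := slTwo_det M
  ext i j
  fin_cases i <;> fin_cases j <;>
    simp [Matrix.mul_apply, Fin.sum_univ_two] <;>
    first | linear_combination h | linear_combination -h | ring

/-- Elements of equal trace have powers given by the same linear polynomial. -/
theorem sl2_pow_linear (M N : SL(2, F)) (ht : M 0 0 + M 1 1 = N 0 0 + N 1 1) (k : ℕ) :
    ∃ a b : F, ((M ^ k : SL(2, F)) : Matrix (Fin 2) (Fin 2) F) = a • M.1 + b • 1 ∧
      ((N ^ k : SL(2, F)) : Matrix (Fin 2) (Fin 2) F) = a • N.1 + b • 1 := by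
  induction k with
  | zero => exact ⟨0, 1, by simp, by simp⟩
  | succ k ih =>
    obtain ⟨a, b, h1, h2⟩ := ih
    refine ⟨a * (M 0 0 + M 1 1) + b, -a, ?_, ?_⟩
    · rw [pow_succ]
      show ((M ^ k : SL(2, F)) : Matrix (Fin 2) (Fin 2) F) * M.1 = _
      rw [h1, add_mul, smul_mul_assoc, smul_mul_assoc,
        sl2_sq, one_mul]
      module
    · rw [ht, pow_succ]
      show ((N ^ k : SL(2, F)) : Matrix (Fin 2) (Fin 2) F) * N.1 = _
      rw [h2, add_mul, smul_mul_assoc, smul_mul_assoc,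
        sl2_sq, one_mul]
      module

theorem sl2_center_entries {Z : SL(2, F)} (hZ : Z ∈ Subgroup.center SL(2, F)) :
    Z 0 1 = 0 ∧ Z 1 0 = 0 ∧ Z 0 0 = Z 1 1 := by
  have h1 := Subgroup.mem_center_iff.1 hZ (upperT 1)
  have h2 := Subgroup.mem_center_iff.1 hZ (lowerT 1)
  have a := congrArg (fun g : SL(2, F) => g 0 0) h1
  have b := congrArg (fun g : SL(2, F) => g 0 1) h1
  have c := congrArg (fun g : SL(2, F) => g 0 0) h2
  simp [slTwo_mul_apply, SpecialLinearGroup.transvection_coe] at a b c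
  refine ⟨c, a, ?_⟩
  linear_combination -b

/-- If `M^k` is central and `M` is not diagonal then `N^(2k) = 1` for `N` of the same trace. -/
theorem sl2_pow_eq_one_of_pow_mem_center (M N : SL(2, F)) (h01 : M 0 1 ≠ 0)
    (ht : M 0 0 + M 1 1 = N 0 0 + N 1 1) {k : ℕ} (hk : M ^ k ∈ Subgroup.center SL(2, F)) :
    N ^ (2 * k) = 1 := by
  obtain ⟨a, b, h1, h2⟩ := sl2_pow_linear M N ht k
  obtain ⟨e01, -, -⟩ := sl2_center_entries hk
  rw [h1] at e01
  simp at e01
  obtain rfl : a = 0 := e01.resolve_right h01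
  rw [zero_smul, zero_add] at h1 h2
  have hd := slTwo_det (M ^ k)
  rw [h1] at hd
  simp at hd
  apply Subtype.ext
  rw [mul_comm, pow_mul, sq]
  show ((N ^ k : SL(2, F)) : Matrix (Fin 2) (Fin 2) F) * ((N ^ k : SL(2, F)) : Matrix _ _ F) = 1
  rw [h2, smul_mul_smul_comm, mul_one, hd, one_smul]

/-- A unipotent and a conjugate whose product has order divisible by a given odd order. -/
theorem exists_conj_product_order {r : ℕ} (hr : Odd r) (S : SL(2, F)) (hS : orderOf S = r)
    (hr1 : 1 < r) {α : F} (hα : α ≠ 0) :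
    ∃ g : SL(2, F), g 1 0 ≠ 0 ∧
      ∀ k : ℕ, (upperT α * (g * upperT α * g⁻¹)) ^ k ∈ Subgroup.center SL(2, F) → r ∣ k := by
  have hs : S 0 0 + S 1 1 ≠ 0 := by
    intro h
    have h2 : S * S = -1 := Subtype.ext (by
      show (S.1 * S.1 : Matrix (Fin 2) (Fin 2) F) = -1
      rw [sl2_sq, h, zero_smul, zero_sub])
    have h4 : S ^ 4 = 1 := by
      rw [show (4 : ℕ) = 2 + 2 from rfl, pow_add, sq, h2, neg_mul_neg, one_mul]
    have hd : r ∣ 4 := hS ▸ orderOf_dvd_of_pow_eq_one h4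
    have := Nat.le_of_dvd (by norm_num) hd
    obtain ⟨c, rfl⟩ := hr
    obtain ⟨d, hd⟩ := hd
    have hc : c ≤ 1 := by omega
    interval_cases c <;> omega
  set s := S 0 0 + S 1 1 with hs'
  set μ := s / α with hμ
  have hμ0 : μ ≠ 0 := div_ne_zero hs hα
  let g : SL(2, F) := ⟨!![0, -μ⁻¹; μ, 0], by simp [Matrix.det_fin_two, hμ0]⟩
  have g00 : g 0 0 = 0 := by simp [g]
  have g01 : g 0 1 = -μ⁻¹ := by simp [g]
  have g10 : g 1 0 = μ := by simp [g]
  have g11 : g 1 1 = 0 := by simp [g]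
  clear_value g
  refine ⟨g, by rw [g10]; exact hμ0, fun k hk => ?_⟩
  set l : SL(2, F) := lowerT (-(μ * μ * α)) with hl
  have hgl : g * upperT α * g⁻¹ = l := by
    rw [mul_inv_eq_iff_eq_mul]
    apply slTwo_ext <;>
      simp [g00, g01, g10, g11, hl, slTwo_mul_apply, SpecialLinearGroup.transvection_coe] <;>
        field_simp
  rw [hgl] at hk
  have h01 : (upperT α * l) 0 1 ≠ 0 := by
    simp [hl, slTwo_mul_apply, SpecialLinearGroup.transvection_coe, hα]
  have ht : (upperT α * l) 0 0 + (upperT α * l) 1 1 = (-(S * S)) 0 0 + (-(S * S)) 1 1 := by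
    simp [hl, slTwo_mul_apply, SpecialLinearGroup.transvection_coe, SpecialLinearGroup.coe_neg,
      Matrix.neg_apply, Matrix.mul_apply, Fin.sum_univ_two]
    have hd := slTwo_det S
    rw [hμ]
    field_simp
    rw [hs']
    linear_combination -2 * hd
  have h := sl2_pow_eq_one_of_pow_mem_center _ _ h01 ht hk
  rw [mul_comm, pow_mul', neg_sq] at h
  rw [← pow_two, ← pow_mul, ← pow_mul] at h
  have hd : r ∣ 4 * k := by
    have := hS ▸ orderOf_dvd_of_pow_eq_one h
    convert this using 1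
    ring
  exact (Nat.Coprime.dvd_mul_left (by
    obtain ⟨c, rfl⟩ := hr
    show Nat.Coprime _ (2 ^ 2)
    exact Nat.Coprime.pow_right 2 (by simp))).1 hd

/-- An odd prime power dividing `q + 1` modulo which `p` has order `2n`, `q = p ^ n`. -/
theorem exists_prime_power_order {p n : ℕ} (hp : p.Prime) (hn : 2 ≤ n) :
    ∃ l e : ℕ, l.Prime ∧ l ≠ 2 ∧ l ≠ p ∧ l ^ (e + 1) ∣ p ^ n + 1 ∧
      ∀ m, l ^ (e + 1) ∣ p ^ m - 1 → 2 * n ∣ m := by
  by_cases h : p = 2 ∧ 2 * n = 6
  · obtain ⟨rfl, h6⟩ := h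
    obtain rfl : n = 3 := by omega
    refine ⟨3, 1, Nat.prime_three, by norm_num, by norm_num, by norm_num, fun m hm => ?_⟩
    have h1 : (2 : ZMod 9) ^ m = 1 := (Arith.dvd_pow_sub_one_iff (p := 9) (a := 2) two_pos m).1
      (by simpa using hm)
    have ho : orderOf (2 : ZMod 9) = 6 := by
      rw [orderOf_eq_iff (by norm_num)]
      refine ⟨by decide, fun j hj hj0 => ?_⟩
      interval_cases j <;> decide
    show 6 ∣ m
    rw [← ho]
    exact orderOf_dvd_of_pow_eq_one h1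
  obtain ⟨l, hl, ho⟩ := Arith.exists_prime_orderOf_eq (a := p) (n := 2 * n) hp.one_lt (by omega) h
    (by rintro ⟨h2, -⟩; omega)
  haveI := Fact.mk hl
  have hnd := Arith.not_dvd_of_orderOf_eq (by omega) ho
  have hlt := Arith.lt_of_orderOf_eq (by omega) ho
  refine ⟨l, 0, hl, by omega, fun e => hnd (e ▸ dvd_rfl), ?_, fun m hm => ?_⟩
  · have h1 : l ∣ p ^ (2 * n) - 1 :=
      (Arith.dvd_pow_sub_one_iff_orderOf_dvd hp.pos _).2 ho.dvd
    rw [show 2 * n = n * 2 from mul_comm _ _, pow_mul, ← one_pow 2, Nat.sq_sub_sq] at h1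
    rw [pow_one]
    rcases hl.dvd_mul.1 h1 with h2 | h2
    · exact h2
    · have h3 := (Arith.dvd_pow_sub_one_iff_orderOf_dvd hp.pos _).1 h2
      rw [ho] at h3
      have := Nat.le_of_dvd (by omega) h3
      omega
  · rw [pow_one] at hm
    exact ho ▸ (Arith.dvd_pow_sub_one_iff_orderOf_dvd hp.pos _).1 hm

end Cfsg.Agent.EvenLocal
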